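/-
The centraliser in the group of the code of an involution with an octad of fixed points is isomorphic
to the centraliser of a transvection in the special linear group of degree five over the field of two
elements: the graph of the isomorphism is generated by explicit pairs.
-/
import Cfsg.Agent.Lib.M24.CentIso.Data
import Cfsg.Agent.Lib.M24X.TAMain

set_option autoImplicit false
set_option maxRecDepth 100000

namespace Cfsg.Agent.Lib.M24.CI

open Cfsg Cfsg.Agent.Lib.Golay

/-- The special linear group. -/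
abbrev SL5 := Matrix.SpecialLinearGroup (Fin 5) (ZMod 2)

/-- The ambient group. -/
abbrev GG := ↥Cfsg.M24

/-- The product in which the graph lives. -/
abbrev HH := GG × SL5

/-- A combination of the rows of `b` with coefficients the bits of `x`. -/
def xr (x : ℕ) (b : List ℕ) : ℕ :=
  Nat.xor (Nat.xor (Nat.xor (Nat.xor (if x.testBit 0 then lk b 0 else 0) (if x.testBit 1 then lk b 1 else 0))
    (if x.testBit 2 then lk b 2 else 0)) (if x.testBit 3 then lk b 3 else 0))
    (if x.testBit 4 then lk b 4 else 0)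

/-- Product of rows. -/
def mulB (a b : List ℕ) : List ℕ :=
  [xr (lk a 0) b, xr (lk a 1) b, xr (lk a 2) b, xr (lk a 3) b, xr (lk a 4) b]

/-- The matrix with given rows. -/
def mat (r : List ℕ) : Matrix (Fin 5) (Fin 5) (ZMod 2) :=
  fun i j => if (lk r i).testBit j then 1 else 0

lemma ite_tb (b : Bool) (n j : ℕ) : (if b = true then n else 0).testBit j = (b && n.testBit j) := by
  cases b <;> simp

lemma bool_comb (a0 a1 a2 a3 a4 b0 b1 b2 b3 b4 : Bool) :
    (if (((((a0 && b0) ^^ (a1 && b1)) ^^ (a2 && b2)) ^^ (a3 && b3)) ^^ (a4 && b4)) = true then (1 : ZMod 2) else 0) =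
      (if a0 = true then (1 : ZMod 2) else 0) * (if b0 = true then 1 else 0) +
      (if a1 = true then (1 : ZMod 2) else 0) * (if b1 = true then 1 else 0) +
      (if a2 = true then (1 : ZMod 2) else 0) * (if b2 = true then 1 else 0) +
      (if a3 = true then (1 : ZMod 2) else 0) * (if b3 = true then 1 else 0) +
      (if a4 = true then (1 : ZMod 2) else 0) * (if b4 = true then 1 else 0) := by
  revert a0 a1 a2 a3 a4 b0 b1 b2 b3 b4
  decide +kernel

theorem mat_mul (a b : List ℕ) : mat (mulB a b) = mat a * mat b := by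
  ext i j
  rw [Matrix.mul_apply, Fin.sum_univ_five]
  have h : lk (mulB a b) i = xr (lk a i) b := by
    fin_cases i <;> rfl
  simp only [mat, h, xr]
  have e0 : ((0 : Fin 5) : ℕ) = 0 := rfl
  have e1 : ((1 : Fin 5) : ℕ) = 1 := rfl
  have e2 : ((2 : Fin 5) : ℕ) = 2 := rfl
  have e3 : ((3 : Fin 5) : ℕ) = 3 := rfl
  have e4 : ((4 : Fin 5) : ℕ) = 4 := rfl
  simp only [e0, e1, e2, e3, e4]
  have hx : ∀ m n : ℕ, Nat.xor m n = m ^^^ n := fun _ _ => rfl
  simp only [hx, Nat.testBit_xor, ite_tb]
  exact bool_comb _ _ _ _ _ _ _ _ _ _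

/-- The identity rows. -/
def id5 : List ℕ := [1, 2, 4, 8, 16]

theorem mat_id5 : mat id5 = 1 := by
  ext i j
  fin_cases i <;> fin_cases j <;> rfl

/-- The rows of the transvection. -/
def sR : List ℕ := [3, 2, 4, 8, 16]

theorem mat_sR : mat sR = Matrix.transvection 0 1 1 := by
  ext i j
  rw [Matrix.transvection, Matrix.add_apply, Matrix.one_apply, Matrix.single_apply]
  fin_cases i <;> fin_cases j <;> first | rfl | simp [mat, sR, lk]

/-- Product of pairs. -/
def mulP (w v : PW) : PW := (mulL w.1 v.1, mulB w.2 v.2)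

/-- An element of the product coded by a pair. -/
def Enc (w : PW) (x : HH) : Prop :=
  (x.1 : Equiv.Perm GolayPt) = perm w.1 ∧ ((x.2 : SL5) : Matrix (Fin 5) (Fin 5) (ZMod 2)) = mat w.2

lemma Enc.mul {w v : PW} {x y : HH} (hw : isPerm w.1 = true) (hv : isPerm v.1 = true) (h1 : Enc w x)
    (h2 : Enc v y) : Enc (mulP w v) (x * y) := by
  constructor
  · show (x.1 : Equiv.Perm GolayPt) * (y.1 : Equiv.Perm GolayPt) = perm (mulL w.1 v.1)
    rw [h1.1, h2.1, Cfsg.Agent.Lib.M24X.perm_mulL hw hv]
  · show ((x.2 * y.2 : SL5) : Matrix (Fin 5) (Fin 5) (ZMod 2)) = mat (mulB w.2 v.2)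
    rw [Matrix.SpecialLinearGroup.coe_mul, h1.2, h2.2, mat_mul]

lemma Enc.unique {w : PW} {x y : HH} (h1 : Enc w x) (h2 : Enc w y) : x = y := by
  apply Prod.ext
  · exact Subtype.ext (h1.1.trans h2.1.symm)
  · exact Subtype.ext (h1.2.trans h2.2.symm)

lemma enc_one : Enc (Cfsg.Agent.Lib.Golay.idL, id5) 1 := by
  constructor
  · exact (Cfsg.Agent.Lib.M24X.perm_idL).symm
  · exact mat_id5.symm

/-- The elements coded by a list. -/
def Sg (G : List PW) : Set HH := {x | ∃ w ∈ G, Enc w x}

/-- Induction along a closure in a finite group, multiplying on the right by generators only. -/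
theorem closure_right {A : Type*} [Group A] [Finite A] (S : Set A) (P : A → Prop) (h1 : P 1)
    (hc : ∀ x, P x → ∀ s ∈ S, P (x * s)) : ∀ x ∈ Subgroup.closure S, P x := by
  have key : ∀ x ∈ Subgroup.closure S, ∀ y, P y → P (y * x) := by
    intro x hx
    induction hx using Subgroup.closure_induction with
    | mem s hs => exact fun y hy => hc y hy s hs
    | one => simp
    | mul a b _ _ ha hb =>
      intro y hy
      rw [← mul_assoc]
      exact hb _ (ha y hy)
    | inv a _ ha =>
      intro y hy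
      have hpow : ∀ n : ℕ, ∀ y, P y → P (y * a ^ n) := by
        intro n
        induction n with
        | zero => simp
        | succ n ih =>
          intro y hy
          rw [pow_succ, ← mul_assoc]
          exact ha _ (ih y hy)
      have hpos := orderOf_pos a
      have e : a⁻¹ = a ^ (orderOf a - 1) := by
        apply inv_eq_of_mul_eq_one_right
        rw [← pow_succ', Nat.sub_add_cancel hpos, pow_orderOf_eq_one]
      rw [e]
      exact hpow _ y hy
  intro x hx
  simpa using key x hx 1 h1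

/-- Closure of a list under the generators. -/
def closedW (W G : List PW) : Bool := W.all fun w => G.all fun s => decide (mulP w s ∈ W)

theorem closure_sub {W G : List PW} (hW : ∀ w ∈ W, isPerm w.1 = true) (hG : ∀ w ∈ G, isPerm w.1 = true)
    (hid : ∃ w ∈ W, Enc w 1) (hc : closedW W G = true) :
    ∀ x ∈ Subgroup.closure (Sg G), ∃ w ∈ W, Enc w x := by
  apply closure_right
  · exact hid
  · rintro x ⟨w, hw, hx⟩ s ⟨g, hg, hs⟩
    have := List.all_eq_true.1 (List.all_eq_true.1 hc w hw) g hg
    exact ⟨mulP w g, of_decide_eq_true this, hx.mul (hW w hw) (hG g hg) hs⟩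

/-- The parent check for a list. -/
def chainW (G : List PW) : List PW → List PW → List (ℕ × ℕ) → Bool
  | _, [], _ => true
  | _, _ :: _, [] => false
  | seen, w :: t, (p, c) :: wt =>
    match seen[p]?, G[c]? with
    | some a, some g => decide (mulP a g = w) && chainW G (w :: seen) t wt
    | _, _ => false

theorem chain_real {T : Subgroup HH} {G : List PW} (hG : ∀ g ∈ G, isPerm g.1 = true)
    (hGT : ∀ g ∈ G, ∃ x ∈ T, Enc g x) :
    ∀ (rest seen : List PW) (wit : List (ℕ × ℕ)), (∀ a ∈ seen, isPerm a.1 = true) →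
      (∀ a ∈ rest, isPerm a.1 = true) →
      (∀ a ∈ seen, ∃ x ∈ T, Enc a x) → chainW G seen rest wit = true →
      ∀ w ∈ rest, ∃ x ∈ T, Enc w x := by
  intro rest
  induction rest with
  | nil => simp
  | cons w t ih =>
    intro seen wit hs hr hreal hc
    cases wit with
    | nil => simp [chainW] at hc
    | cons pc wt =>
      obtain ⟨p, c⟩ := pc
      simp only [chainW] at hc
      split at hc
      · rename_i a g ha hg
        simp only [Bool.and_eq_true, decide_eq_true_eq] at hc
        obtain ⟨e, hc2⟩ := hc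
        have ha' : a ∈ seen := List.mem_of_getElem? ha
        have hg' : g ∈ G := List.mem_of_getElem? hg
        obtain ⟨x, hx, hxe⟩ := hreal a ha'
        obtain ⟨y, hy, hye⟩ := hGT g hg'
        have hw : ∃ z ∈ T, Enc w z := ⟨x * y, T.mul_mem hx hy, e ▸ hxe.mul (hs a ha') (hG g hg') hye⟩
        have hwp : isPerm w.1 = true := hr w (List.mem_cons_self)
        have := ih (w :: seen) wt
          (fun b hb => (List.mem_cons.1 hb).elim (fun h => h ▸ hwp) (hs b))
          (fun b hb => hr b (List.mem_cons_of_mem _ hb))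
          (fun b hb => (List.mem_cons.1 hb).elim (fun h => h ▸ hw) (hreal b)) hc2
        intro v hv
        rcases List.mem_cons.1 hv with rfl | hv
        · exact hw
        · exact this v hv
      · simp at hc

/-! ### The data -/

def allP (W : List PW) : Bool := W.all fun w => isPerm w.1

lemma WQ_perm : allP WQ = true := by decide +kernel
lemma WK_perm : allP WK = true := by decide +kernel
lemma gQ_perm : allP gQ = true := by decide +kernel
lemma gK_perm : allP gK = true := by decide +kernel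

lemma perm_of {W : List PW} (h : allP W = true) : ∀ w ∈ W, isPerm w.1 = true :=
  fun w hw => List.all_eq_true.1 h w hw

lemma gQ_aut : (gQ.all fun w => autCheck w.1) = true := by decide +kernel
lemma gK_aut : (gK.all fun w => autCheck w.1) = true := by decide +kernel

lemma gQ_inv : (gQ.all fun w => WQ.any fun u => decide (mulB w.2 u.2 = id5)) = true := by decide +kernel
lemma gK_inv : (gK.all fun w => WK.any fun u => decide (mulB w.2 u.2 = id5)) = true := by decide +kernel

/-- A pair of a code automorphism and a matrix with a right inverse gives an element. -/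
lemma exists_enc {w : PW} (hp : isPerm w.1 = true) (ha : autCheck w.1 = true) {r : List ℕ}
    (hr : mulB w.2 r = id5) : ∃ x : HH, Enc w x := by
  have h1 : mat w.2 * mat r = 1 := by
    rw [← mat_mul, hr, mat_id5]
  have h2 : (mat w.2).det * (mat r).det = 1 := by
    rw [← Matrix.det_mul, h1, Matrix.det_one]
  have h3 : (mat w.2).det = 1 := by
    have h4 : ∀ u v : ZMod 2, u * v = 1 → u = 1 := by decide
    exact h4 _ _ h2
  exact ⟨(⟨perm w.1, perm_mem_M24 hp ha⟩, ⟨mat w.2, h3⟩), rfl, rfl⟩

lemma exists_gQ {w : PW} (hw : w ∈ gQ) : ∃ x : HH, Enc w x := by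
  obtain ⟨u, _, hu⟩ := List.any_eq_true.1 (List.all_eq_true.1 gQ_inv w hw)
  exact exists_enc (perm_of gQ_perm w hw) (List.all_eq_true.1 gQ_aut w hw) (of_decide_eq_true hu)

lemma exists_gK {w : PW} (hw : w ∈ gK) : ∃ x : HH, Enc w x := by
  obtain ⟨u, _, hu⟩ := List.any_eq_true.1 (List.all_eq_true.1 gK_inv w hw)
  exact exists_enc (perm_of gK_perm w hw) (List.all_eq_true.1 gK_aut w hw) (of_decide_eq_true hu)

lemma WQ_closed : closedW WQ gQ = true := by decide +kernel
lemma WK_closed : closedW WK gK = true := by decide +kernel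

lemma WQ_head : WQ = (Cfsg.Agent.Lib.Golay.idL, id5) :: WQ.tail := by decide +kernel
lemma WK_id : (Cfsg.Agent.Lib.Golay.idL, id5) ∈ WK := by decide +kernel

lemma WQ_chain : chainW gQ [(Cfsg.Agent.Lib.Golay.idL, id5)] WQ.tail wQ = true := by decide +kernel

/-- The two subgroups. -/
def TQ : Subgroup HH := Subgroup.closure (Sg gQ)
def TK : Subgroup HH := Subgroup.closure (Sg gK)

lemma TQ_sub : ∀ x ∈ TQ, ∃ w ∈ WQ, Enc w x :=
  closure_sub (perm_of WQ_perm) (perm_of gQ_perm)
    ⟨_, by rw [WQ_head]; exact List.mem_cons_self, enc_one⟩ WQ_closed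

lemma TK_sub : ∀ x ∈ TK, ∃ w ∈ WK, Enc w x :=
  closure_sub (perm_of WK_perm) (perm_of gK_perm) ⟨_, WK_id, enc_one⟩ WK_closed

lemma gQ_real : ∀ g ∈ gQ, ∃ x ∈ TQ, Enc g x := by
  intro g hg
  obtain ⟨x, hx⟩ := exists_gQ hg
  exact ⟨x, Subgroup.subset_closure ⟨g, hg, hx⟩, hx⟩

lemma gK_real : ∀ g ∈ gK, ∃ x ∈ TK, Enc g x := by
  intro g hg
  obtain ⟨x, hx⟩ := exists_gK hg
  exact ⟨x, Subgroup.subset_closure ⟨g, hg, hx⟩, hx⟩

lemma WQ_real : ∀ w ∈ WQ, ∃ x ∈ TQ, Enc w x := by
  intro w hw
  rw [WQ_head] at hw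
  rcases List.mem_cons.1 hw with rfl | hw
  · exact ⟨1, TQ.one_mem, enc_one⟩
  · refine chain_real (perm_of gQ_perm) gQ_real WQ.tail _ wQ ?_ ?_ ?_ WQ_chain w hw
    · intro a ha
      rw [List.mem_singleton] at ha
      subst ha
      decide +kernel
    · intro a ha
      exact perm_of WQ_perm a (List.mem_of_mem_tail ha)
    · intro a ha
      rw [List.mem_singleton] at ha
      subst ha
      exact ⟨1, TQ.one_mem, enc_one⟩

/-- The conjugation check on generators. -/
lemma conj_chk : (gK.all fun k => gQ.all fun q => WQ.any fun u => decide (mulP k q = mulP u k)) = true := by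
  decide +kernel

lemma conj_gen {s q : HH} (hs : s ∈ Sg gK) (hq : q ∈ Sg gQ) : s * q * s⁻¹ ∈ TQ := by
  obtain ⟨k, hk, hke⟩ := hs
  obtain ⟨g, hg, hge⟩ := hq
  obtain ⟨u, hu, he⟩ := List.any_eq_true.1 (List.all_eq_true.1 (List.all_eq_true.1 conj_chk k hk) g hg)
  obtain ⟨x, hx, hxe⟩ := WQ_real u hu
  have e1 : Enc (mulP k g) (s * q) := hke.mul (perm_of gK_perm k hk) (perm_of gQ_perm g hg) hge
  have e2 : Enc (mulP u k) (x * s) := hxe.mul (perm_of WQ_perm u hu) (perm_of gK_perm k hk) hke
  rw [of_decide_eq_true he] at e1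
  have e3 := e1.unique e2
  rw [e3]
  simpa using hx

lemma conj_one {s : HH} (hs : s ∈ Sg gK) : ∀ q ∈ TQ, s * q * s⁻¹ ∈ TQ := by
  intro q hq
  induction hq using Subgroup.closure_induction with
  | mem q hq => exact conj_gen hs hq
  | one => simp [TQ.one_mem]
  | mul a b _ _ ha hb =>
    have e : s * (a * b) * s⁻¹ = (s * a * s⁻¹) * (s * b * s⁻¹) := by group
    rw [e]
    exact TQ.mul_mem ha hb
  | inv a _ ha =>
    have e : s * a⁻¹ * s⁻¹ = (s * a * s⁻¹)⁻¹ := by group
    rw [e]
    exact TQ.inv_mem ha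

lemma conj_all : ∀ k ∈ TK, ∀ q ∈ TQ, k * q * k⁻¹ ∈ TQ := by
  apply closure_right
  · intro q hq
    simpa using hq
  · intro x hx s hs q hq
    have e : x * s * q * (x * s)⁻¹ = x * (s * q * s⁻¹) * x⁻¹ := by group
    rw [e]
    exact hx _ (conj_one hs q hq)

/-- The graph. -/
def TT : Subgroup HH := Subgroup.closure (Sg gQ ∪ Sg gK)

lemma TQ_le : TQ ≤ TT := Subgroup.closure_mono Set.subset_union_left
lemma TK_le : TK ≤ TT := Subgroup.closure_mono Set.subset_union_right

lemma TT_decomp : ∀ x ∈ TT, ∃ y ∈ TQ, ∃ k ∈ TK, x = y * k := by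
  apply closure_right
  · exact ⟨1, TQ.one_mem, 1, TK.one_mem, by simp⟩
  · rintro x ⟨y, hy, k, hk, rfl⟩ s (hs | hs)
    · refine ⟨y * (k * s * k⁻¹), TQ.mul_mem hy (conj_all k hk s (Subgroup.subset_closure hs)), k, hk, ?_⟩
      group
    · refine ⟨y, hy, k * s, TK.mul_mem hk (Subgroup.subset_closure hs), ?_⟩
      group

/-- Equality tests. -/
def eqP (a b : List ℕ) : Bool := (List.range 24).all fun k => lk a k == lk b k

def eqM (a b : List ℕ) : Bool :=
  (List.range 5).all fun i => (List.range 5).all fun j => (lk a i).testBit j == (lk b i).testBit j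

lemma perm_eq_of_eqP {a b : List ℕ} (ha : isPerm a = true) (hb : isPerm b = true) (h : eqP a b = true) :
    perm a = perm b := by
  apply Equiv.ext
  intro p
  have h1 := List.all_eq_true.1 h (idx p) (List.mem_range.2 (idx_lt p))
  have h2 : lk a (idx p) = lk b (idx p) := beq_iff_eq.1 h1
  have h3 : idx (perm a p) = idx (perm b p) := by
    rw [idx_perm ha, idx_perm hb, h2]
  rw [← pt_idx (perm a p), h3, pt_idx]

lemma eqP_of_perm_eq {a b : List ℕ} (ha : isPerm a = true) (hb : isPerm b = true) (h : perm a = perm b) :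
    eqP a b = true := by
  apply List.all_eq_true.2
  intro k hk
  have hk' := List.mem_range.1 hk
  have h1 := idx_perm ha (pt k)
  have h2 := idx_perm hb (pt k)
  rw [idx_pt hk'] at h1 h2
  rw [h] at h1
  exact beq_iff_eq.2 (h1.symm.trans h2)

lemma z2_ite_inj {a b : Bool} (h : (if a = true then (1 : ZMod 2) else 0) = if b = true then 1 else 0) : a = b := by
  revert a b
  decide

lemma eqM_of_mat_eq {a b : List ℕ} (h : mat a = mat b) : eqM a b = true := by
  apply List.all_eq_true.2
  intro i hi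
  apply List.all_eq_true.2
  intro j hj
  have hi' := List.mem_range.1 hi
  have hj' := List.mem_range.1 hj
  have h1 := congrFun (congrFun h ⟨i, hi'⟩) ⟨j, hj'⟩
  simp only [mat] at h1
  exact beq_iff_eq.2 (z2_ite_inj h1)

lemma mat_eq_of_eqM {a b : List ℕ} (h : eqM a b = true) : mat a = mat b := by
  ext i j
  have h1 := List.all_eq_true.1 h i (List.mem_range.2 i.2)
  have h2 := List.all_eq_true.1 h1 j (List.mem_range.2 j.2)
  simp only [mat]
  rw [beq_iff_eq.1 h2]

/-- The separation check: the two lists meet only in the identity, in each coordinate. -/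
def isIdW (w : PW) : Bool := eqP w.1 Cfsg.Agent.Lib.Golay.idL && eqM w.2 id5

lemma sep_chk : (WQ.all fun w => WK.all fun v =>
    (!eqP w.1 v.1 && !eqM w.2 v.2) || (isIdW w && isIdW v)) = true := by decide +kernel

lemma isPerm_idL : isPerm Cfsg.Agent.Lib.Golay.idL = true := by decide +kernel

lemma one_of_isId {w : PW} {x : HH} (hp : isPerm w.1 = true) (h : isIdW w = true) (hx : Enc w x) : x = 1 := by
  simp only [isIdW, Bool.and_eq_true] at h
  apply Prod.ext
  · apply Subtype.ext
    show (x.1 : Equiv.Perm GolayPt) = 1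
    rw [hx.1, perm_eq_of_eqP hp isPerm_idL h.1, Cfsg.Agent.Lib.M24X.perm_idL]
  · apply Subtype.ext
    show ((x.2 : SL5) : Matrix (Fin 5) (Fin 5) (ZMod 2)) = 1
    rw [hx.2, mat_eq_of_eqM h.2, mat_id5]

lemma sep_main {y k : HH} (hy : y ∈ TQ) (hk : k ∈ TK) (h : y.1 = k.1 ∨ y.2 = k.2) : y = 1 ∧ k = 1 := by
  obtain ⟨w, hw, hwe⟩ := TQ_sub y hy
  obtain ⟨v, hv, hve⟩ := TK_sub k hk
  have hpw := perm_of WQ_perm w hw
  have hpv := perm_of WK_perm v hv
  have hc := List.all_eq_true.1 (List.all_eq_true.1 sep_chk w hw) v hv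
  have hne : ¬ (!eqP w.1 v.1 && !eqM w.2 v.2) = true := by
    intro h1
    simp only [Bool.and_eq_true, Bool.not_eq_true'] at h1
    rcases h with h | h
    · have h2 : perm w.1 = perm v.1 := by
        rw [← hwe.1, ← hve.1, h]
      rw [eqP_of_perm_eq hpw hpv h2] at h1
      simp at h1
    · have h2 : mat w.2 = mat v.2 := by
        rw [← hwe.2, ← hve.2, h]
      rw [eqM_of_mat_eq h2] at h1
      simp at h1
  rcases Bool.or_eq_true_iff.1 hc with h1 | h1
  · exact absurd h1 hne
  · simp only [Bool.and_eq_true] at h1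
    exact ⟨one_of_isId hpw h1.1 hwe, one_of_isId hpv h1.2 hve⟩

lemma TT_one_left {x : HH} (hx : x ∈ TT) (h : x.1 = 1) : x = 1 := by
  obtain ⟨y, hy, k, hk, rfl⟩ := TT_decomp x hx
  have e : (y⁻¹).1 = k.1 := by
    have h1 : y.1 * k.1 = 1 := h
    show (y.1)⁻¹ = k.1
    exact inv_eq_of_mul_eq_one_right h1
  obtain ⟨h2, h3⟩ := sep_main (TQ.inv_mem hy) hk (Or.inl e)
  rw [h3, mul_one]
  simpa using h2

lemma TT_one_right {x : HH} (hx : x ∈ TT) (h : x.2 = 1) : x = 1 := by
  obtain ⟨y, hy, k, hk, rfl⟩ := TT_decomp x hx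
  have e : (y⁻¹).2 = k.2 := by
    have h1 : y.2 * k.2 = 1 := h
    show (y.2)⁻¹ = k.2
    exact inv_eq_of_mul_eq_one_right h1
  obtain ⟨h2, h3⟩ := sep_main (TQ.inv_mem hy) hk (Or.inr e)
  rw [h3, mul_one]
  simpa using h2

/-- A graph of an isomorphism. -/
theorem graph_iso {A B : Type*} [Group A] [Group B] [Finite A] [Finite B] (CA : Subgroup A) (CB : Subgroup B)
    (T : Subgroup (A × B)) (hT : ∀ x ∈ T, x.1 ∈ CA ∧ x.2 ∈ CB) (h1 : ∀ a ∈ CA, ∃ x ∈ T, x.1 = a)
    (h3 : ∀ x ∈ T, x.1 = 1 → x = 1) (h4 : ∀ x ∈ T, x.2 = 1 → x = 1) (hc : Nat.card CB ≤ Nat.card CA) :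
    Nonempty (CA ≃* CB) := by
  let f : ↥T →* ↥CA :=
    { toFun := fun x => ⟨x.1.1, (hT _ x.2).1⟩
      map_one' := rfl
      map_mul' := fun _ _ => rfl }
  let g : ↥T →* ↥CB :=
    { toFun := fun x => ⟨x.1.2, (hT _ x.2).2⟩
      map_one' := rfl
      map_mul' := fun _ _ => rfl }
  have hf : Function.Bijective f := by
    constructor
    · rw [injective_iff_map_eq_one]
      intro x hx
      apply Subtype.ext
      exact h3 x.1 x.2 (congrArg Subtype.val hx)
    · rintro ⟨a, ha⟩
      obtain ⟨x, hx, e⟩ := h1 a ha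
      exact ⟨⟨x, hx⟩, Subtype.ext e⟩
  have hg : Function.Injective g := by
    rw [injective_iff_map_eq_one]
    intro x hx
    apply Subtype.ext
    exact h4 x.1 x.2 (congrArg Subtype.val hx)
  have hcard : Nat.card CB ≤ Nat.card ↥T := by
    rw [Nat.card_eq_of_bijective f hf]
    exact hc
  have hg' : Function.Bijective g := Function.Injective.bijective_of_nat_card_le hg hcard
  exact ⟨(MulEquiv.ofBijective f hf).symm.trans (MulEquiv.ofBijective g hg')⟩

end Cfsg.Agent.Lib.M24.CI
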