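/-
The two centralisers are isomorphic.
-/
import Cfsg.Agent.Lib.M24.CentIso.Main

set_option autoImplicit false
set_option maxRecDepth 100000

namespace Cfsg.Agent.Lib.M24.CI

open Cfsg Cfsg.Agent.Lib.Golay

local notation "z1" => Cfsg.Agent.Lib.M24X.TA.z1
local notation "tA" => Cfsg.Agent.Lib.M24X.tA

/-! ### Commuting -/

lemma comm_chk : ((gQ ++ gK).all fun w =>
    decide (mulL w.1 tA = mulL tA w.1) && decide (mulB w.2 sR = mulB sR w.2)) = true := by decide +kernel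

lemma gens_perm : ∀ w ∈ gQ ++ gK, isPerm w.1 = true := by
  intro w hw
  rcases List.mem_append.1 hw with h | h
  · exact perm_of gQ_perm w h
  · exact perm_of gK_perm w h

theorem TT_le (s : SL5) (hs : (s : Matrix (Fin 5) (Fin 5) (ZMod 2)) = Matrix.transvection 0 1 1) :
    ∀ x ∈ TT, x.1 ∈ Subgroup.centralizer ({z1} : Set GG) ∧ x.2 ∈ Subgroup.centralizer ({s} : Set SL5) := by
  have hle : TT ≤ (Subgroup.centralizer ({z1} : Set GG)).prod (Subgroup.centralizer ({s} : Set SL5)) := by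
    apply (Subgroup.closure_le _).2
    rintro x hx
    have hx' : ∃ w ∈ gQ ++ gK, Enc w x := by
      rcases hx with ⟨w, hw, he⟩ | ⟨w, hw, he⟩
      · exact ⟨w, List.mem_append.2 (Or.inl hw), he⟩
      · exact ⟨w, List.mem_append.2 (Or.inr hw), he⟩
    obtain ⟨w, hw, he⟩ := hx'
    have hc := List.all_eq_true.1 comm_chk w hw
    simp only [Bool.and_eq_true, decide_eq_true_eq] at hc
    refine Subgroup.mem_prod.2 ⟨?_, ?_⟩
    · rw [Subgroup.mem_centralizer_singleton_iff]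
      apply Subtype.ext
      show (x.1 : Equiv.Perm GolayPt) * perm tA = perm tA * (x.1 : Equiv.Perm GolayPt)
      rw [he.1, ← Cfsg.Agent.Lib.M24X.perm_mulL (gens_perm w hw) Cfsg.Agent.Lib.M24X.TA.tA_perm,
        ← Cfsg.Agent.Lib.M24X.perm_mulL Cfsg.Agent.Lib.M24X.TA.tA_perm (gens_perm w hw), hc.1]
    · rw [Subgroup.mem_centralizer_singleton_iff]
      apply Subtype.ext
      show ((x.2 * s : SL5) : Matrix (Fin 5) (Fin 5) (ZMod 2)) = ((s * x.2 : SL5) : Matrix (Fin 5) (Fin 5) (ZMod 2))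
      rw [Matrix.SpecialLinearGroup.coe_mul, Matrix.SpecialLinearGroup.coe_mul, he.2, hs, ← mat_sR,
        ← mat_mul, ← mat_mul, hc.2]
  intro x hx
  exact Subgroup.mem_prod.1 (hle hx)

/-! ### Surjectivity onto the first centraliser -/

/-- The first projection of the graph. -/
def Pi1 : Subgroup (Equiv.Perm GolayPt) := (TT.map (MonoidHom.fst GG SL5)).map Cfsg.M24.subtype

lemma mem_Pi1 {x : HH} (hx : x ∈ TT) : (x.1 : Equiv.Perm GolayPt) ∈ Pi1 :=
  ⟨x.1, ⟨x, hx, rfl⟩, rfl⟩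

lemma gQ_fst : gQ.map Prod.fst = Cfsg.Agent.Lib.M24X.taQg := by decide +kernel

lemma Q0_le_Pi : Cfsg.Agent.Lib.M24X.TA.Q0 ≤ Pi1 := by
  rw [Cfsg.Agent.Lib.M24X.TA.Q0_eq]
  apply (Subgroup.closure_le _).2
  rintro _ ⟨g, hg, rfl⟩
  rw [← gQ_fst] at hg
  obtain ⟨w, hw, rfl⟩ := List.mem_map.1 hg
  obtain ⟨x, hx, he⟩ := gQ_real w hw
  have := mem_Pi1 (TQ_le hx)
  rwa [he.1] at this

lemma K_chk : (Cfsg.Agent.Lib.M24X.taKg.all fun r => WQ.any fun w => gK.any fun k =>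
    decide (mulL w.1 k.1 = r)) = true := by decide +kernel

lemma K0_le_Pi : Cfsg.Agent.Lib.M24X.TA.K0 ≤ Pi1 := by
  rw [Cfsg.Agent.Lib.M24X.TA.K0_eq]
  apply (Subgroup.closure_le _).2
  rintro _ ⟨r, hr, rfl⟩
  obtain ⟨w, hw, h1⟩ := List.any_eq_true.1 (List.all_eq_true.1 K_chk r hr)
  obtain ⟨k, hk, h2⟩ := List.any_eq_true.1 h1
  have h3 := of_decide_eq_true h2
  obtain ⟨x, hx, he⟩ := WQ_real w hw
  obtain ⟨y, hy, he'⟩ := gK_real k hk
  have h4 := he.mul (perm_of WQ_perm w hw) (perm_of gK_perm k hk) he'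
  have h5 := mem_Pi1 (TT.mul_mem (TQ_le hx) (TK_le hy))
  rw [h4.1] at h5
  show perm r ∈ Pi1
  rw [← h3]
  exact h5

theorem exists_of_cent {a : GG} (ha : a ∈ Subgroup.centralizer ({z1} : Set GG)) : ∃ x ∈ TT, x.1 = a := by
  have hc : a * z1 = z1 * a := by
    rw [Subgroup.mem_centralizer_singleton_iff] at ha
    exact ha
  obtain ⟨q, hq, k, hk, rfl⟩ := Cfsg.Agent.Lib.M24X.TA.split1.hdec a hc
  have h1 : (q : Equiv.Perm GolayPt) ∈ Pi1 := Q0_le_Pi (Cfsg.Agent.Lib.M24X.TA.mem_Q1.1 hq)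
  have h2 : (k : Equiv.Perm GolayPt) ∈ Pi1 := K0_le_Pi (Cfsg.Agent.Lib.M24X.TA.mem_K1.1 hk)
  have h3 := Pi1.mul_mem h1 h2
  obtain ⟨b, ⟨x, hx, hxb⟩, e⟩ := h3
  refine ⟨x, hx, ?_⟩
  apply Subtype.ext
  have e2 : (b : Equiv.Perm GolayPt) = (q : Equiv.Perm GolayPt) * k := e
  have e3 : (x.1 : Equiv.Perm GolayPt) = (b : Equiv.Perm GolayPt) := congrArg Subtype.val hxb
  exact e3.trans e2

/-! ### Counting -/

theorem card_K1 : Nat.card Cfsg.Agent.Lib.M24X.TA.K1 = 168 := by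
  rw [← Cfsg.Agent.Lib.M24X.TA.card_K0]
  exact Nat.card_congr (Subgroup.subgroupOfEquivOfLe Cfsg.Agent.Lib.M24X.TA.K0_le).toEquiv

theorem card_C_ge : 21504 ≤ Nat.card ↥(Subgroup.centralizer ({z1} : Set GG)) := by
  have D := Cfsg.Agent.Lib.M24X.TA.split1
  have hQc : ∀ q ∈ Cfsg.Agent.Lib.M24X.TA.Q1, q ∈ Subgroup.centralizer ({z1} : Set GG) := by
    intro q hq
    rw [Subgroup.mem_centralizer_singleton_iff]
    exact D.es.z_central q hq
  have hKc : ∀ k ∈ Cfsg.Agent.Lib.M24X.TA.K1, k ∈ Subgroup.centralizer ({z1} : Set GG) := by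
    intro k hk
    rw [Subgroup.mem_centralizer_singleton_iff]
    exact D.hKC k hk
  let f : ↥Cfsg.Agent.Lib.M24X.TA.Q1 × ↥Cfsg.Agent.Lib.M24X.TA.K1 → ↥(Subgroup.centralizer ({z1} : Set GG)) :=
    fun p => ⟨p.1.1 * p.2.1, Subgroup.mul_mem _ (hQc _ p.1.2) (hKc _ p.2.2)⟩
  have hf : Function.Injective f := by
    rintro ⟨⟨q, hq⟩, ⟨k, hk⟩⟩ ⟨⟨q', hq'⟩, ⟨k', hk'⟩⟩ h
    have h1 : q * k = q' * k' := congrArg Subtype.val h
    have h2 : q'⁻¹ * q = k' * k⁻¹ := by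
      rw [inv_mul_eq_iff_eq_mul, ← mul_assoc, eq_mul_inv_iff_mul_eq, h1]
    have h3 : q'⁻¹ * q ∈ Cfsg.Agent.Lib.M24X.TA.Q1 ⊓ Cfsg.Agent.Lib.M24X.TA.K1 := by
      refine ⟨Subgroup.mul_mem _ (Subgroup.inv_mem _ hq') hq, ?_⟩
      rw [h2]
      exact Subgroup.mul_mem _ hk' (Subgroup.inv_mem _ hk)
    rw [D.hQK, Subgroup.mem_bot] at h3
    have h4 : q = q' := by
      rw [inv_mul_eq_one] at h3
      exact h3.symm
    subst h4
    have h5 : k = k' := mul_left_cancel h1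
    subst h5
    rfl
  have h := Nat.card_le_card_of_injective f hf
  rw [Nat.card_prod, Cfsg.Agent.Lib.M24X.TA.card_Q1, card_K1] at h
  exact h

/-- The last three indices. -/
def e3 (i : Fin 3) : Fin 5 := ⟨i.1 + 2, by omega⟩

lemma entries {B : Matrix (Fin 5) (Fin 5) (ZMod 2)}
    (h : B * Matrix.transvection 0 1 1 = Matrix.transvection 0 1 1 * B) :
    (∀ i, i ≠ 0 → B i 0 = 0) ∧ (∀ j, j ≠ 1 → B 1 j = 0) := by
  have hE : B * Matrix.single 0 1 1 = Matrix.single 0 1 1 * B := by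
    rw [Matrix.transvection, mul_add, add_mul, mul_one, one_mul] at h
    exact add_left_cancel h
  constructor
  · intro i hi
    have h1 := congrFun (congrFun hE i) 1
    fin_cases i <;> simp_all [Matrix.mul_apply, Fin.sum_univ_five, Matrix.single_apply]
  · intro j hj
    have h1 := congrFun (congrFun hE 0) j
    fin_cases j <;> simp_all [Matrix.mul_apply, Fin.sum_univ_five, Matrix.single_apply]

lemma block_inv {B B' : Matrix (Fin 5) (Fin 5) (ZMod 2)} (h0 : ∀ i, i ≠ 0 → B i 0 = 0)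
    (h1 : ∀ j, j ≠ 1 → B' 1 j = 0) (h : B * B' = 1) :
    (Matrix.of fun i j : Fin 3 => B (e3 i) (e3 j)) * (Matrix.of fun i j : Fin 3 => B' (e3 i) (e3 j)) = 1 := by
  ext i j
  have hb := congrFun (congrFun h (e3 i)) (e3 j)
  rw [Matrix.mul_apply, Fin.sum_univ_five, h0 (e3 i) (by fin_cases i <;> decide),
    h1 (e3 j) (by fin_cases j <;> decide), zero_mul, mul_zero, zero_add, zero_add] at hb
  rw [Matrix.mul_apply, Fin.sum_univ_three]
  have hone : (1 : Matrix (Fin 5) (Fin 5) (ZMod 2)) (e3 i) (e3 j) = (1 : Matrix (Fin 3) (Fin 3) (ZMod 2)) i j := by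
    fin_cases i <;> fin_cases j <;> rfl
  rw [← hone, ← hb]
  rfl

lemma corner {B B' : Matrix (Fin 5) (Fin 5) (ZMod 2)} (h0 : ∀ i, i ≠ 0 → B' i 0 = 0) (h : B * B' = 1) :
    B 0 0 = 1 := by
  have hb := congrFun (congrFun h 0) 0
  rw [Matrix.mul_apply, Fin.sum_univ_five, h0 1 (by decide), h0 2 (by decide), h0 3 (by decide), h0 4 (by decide)] at hb
  simp only [mul_zero, add_zero, Matrix.one_apply_eq] at hb
  have h4 : ∀ u v : ZMod 2, u * v = 1 → u = 1 := by decide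
  exact h4 _ _ hb

lemma corner' {B B' : Matrix (Fin 5) (Fin 5) (ZMod 2)} (h1 : ∀ j, j ≠ 1 → B 1 j = 0) (h : B * B' = 1) :
    B 1 1 = 1 := by
  have hb := congrFun (congrFun h 1) 1
  rw [Matrix.mul_apply, Fin.sum_univ_five, h1 0 (by decide), h1 2 (by decide), h1 3 (by decide), h1 4 (by decide)] at hb
  simp only [zero_mul, zero_add, add_zero, Matrix.one_apply_eq] at hb
  have h4 : ∀ u v : ZMod 2, u * v = 1 → u = 1 := by decide
  exact h4 _ _ hb

lemma exists_e3 {i : Fin 5} (hi0 : i ≠ 0) (hi1 : i ≠ 1) : ∃ i' : Fin 3, e3 i' = i := by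
  fin_cases i
  · exact absurd rfl hi0
  · exact absurd rfl hi1
  · exact ⟨0, rfl⟩
  · exact ⟨1, rfl⟩
  · exact ⟨2, rfl⟩

lemma mat_ext_of {B B' : Matrix (Fin 5) (Fin 5) (ZMod 2)}
    (hB : (∀ i, i ≠ 0 → B i 0 = 0) ∧ (∀ j, j ≠ 1 → B 1 j = 0))
    (hB' : (∀ i, i ≠ 0 → B' i 0 = 0) ∧ (∀ j, j ≠ 1 → B' 1 j = 0))
    (h00 : B 0 0 = B' 0 0) (h11 : B 1 1 = B' 1 1)
    (h1 : ∀ j : Fin 4, B 0 j.succ = B' 0 j.succ) (h2 : ∀ i : Fin 3, B (e3 i) 1 = B' (e3 i) 1)
    (h3 : ∀ i j : Fin 3, B (e3 i) (e3 j) = B' (e3 i) (e3 j)) : B = B' := by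
  ext i j
  by_cases hi1 : i = 1
  · subst hi1
    by_cases hj1 : j = 1
    · subst hj1
      exact h11
    · rw [hB.2 j hj1, hB'.2 j hj1]
  · by_cases hj0 : j = 0
    · subst hj0
      by_cases hi0 : i = 0
      · subst hi0
        exact h00
      · rw [hB.1 i hi0, hB'.1 i hi0]
    · by_cases hi0 : i = 0
      · subst hi0
        obtain ⟨j', rfl⟩ := Fin.exists_succ_eq.2 hj0
        exact h1 j'
      · by_cases hj1 : j = 1
        · subst hj1
          obtain ⟨i', rfl⟩ := exists_e3 hi0 hi1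
          exact h2 i'
        · obtain ⟨i', rfl⟩ := exists_e3 hi0 hi1
          obtain ⟨j', rfl⟩ := exists_e3 hj0 hj1
          exact h3 i' j'

lemma card_target :
    Nat.card ((Fin 4 → ZMod 2) × (Fin 3 → ZMod 2) × Matrix.GeneralLinearGroup (Fin 3) (ZMod 2)) = 21504 := by
  have hGL : Nat.card (Matrix.GeneralLinearGroup (Fin 3) (ZMod 2)) = 168 := by
    rw [Matrix.card_GL_field]
    simp [Fin.prod_univ_three, ZMod.card]
  rw [Nat.card_prod, Nat.card_prod, hGL]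
  simp only [Nat.card_pi, Nat.card_zmod, Finset.prod_const, Finset.card_univ, Fintype.card_fin]
  norm_num

/-- The matrix of an element of the centraliser. -/
abbrev Mc {s : SL5} (b : ↥(Subgroup.centralizer ({s} : Set SL5))) : Matrix (Fin 5) (Fin 5) (ZMod 2) :=
  ((b.1 : SL5) : Matrix (Fin 5) (Fin 5) (ZMod 2))

lemma Mc_mul {s : SL5} (b : ↥(Subgroup.centralizer ({s} : Set SL5))) : Mc b * Mc b⁻¹ = 1 := by
  have h1 : b.1 * (b⁻¹).1 = 1 := by
    show (b * b⁻¹).1 = 1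
    simp
  have h2 := congrArg (fun t : SL5 => (t : Matrix (Fin 5) (Fin 5) (ZMod 2))) h1
  simpa only [Matrix.SpecialLinearGroup.coe_mul, Matrix.SpecialLinearGroup.coe_one] using h2

lemma Mc_comm {s : SL5} (hs : (s : Matrix (Fin 5) (Fin 5) (ZMod 2)) = Matrix.transvection 0 1 1)
    (b : ↥(Subgroup.centralizer ({s} : Set SL5))) :
    Mc b * Matrix.transvection 0 1 1 = Matrix.transvection 0 1 1 * Mc b := by
  have h1 := b.2
  rw [Subgroup.mem_centralizer_singleton_iff] at h1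
  have h2 := congrArg (fun t : SL5 => (t : Matrix (Fin 5) (Fin 5) (ZMod 2))) h1
  simp only [Matrix.SpecialLinearGroup.coe_mul, hs] at h2
  exact h2

/-- The invertible block. -/
noncomputable def Ub {s : SL5} (hs : (s : Matrix (Fin 5) (Fin 5) (ZMod 2)) = Matrix.transvection 0 1 1)
    (b : ↥(Subgroup.centralizer ({s} : Set SL5))) : Matrix.GeneralLinearGroup (Fin 3) (ZMod 2) :=
  ⟨Matrix.of fun i j : Fin 3 => Mc b (e3 i) (e3 j), Matrix.of fun i j : Fin 3 => Mc b⁻¹ (e3 i) (e3 j),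
    block_inv (entries (Mc_comm hs b)).1 (entries (Mc_comm hs b⁻¹)).2 (Mc_mul b),
    mul_eq_one_comm.1 (block_inv (entries (Mc_comm hs b)).1 (entries (Mc_comm hs b⁻¹)).2 (Mc_mul b))⟩

theorem card_C_le (s : SL5) (hs : (s : Matrix (Fin 5) (Fin 5) (ZMod 2)) = Matrix.transvection 0 1 1) :
    Nat.card ↥(Subgroup.centralizer ({s} : Set SL5)) ≤ 21504 := by
  rw [← card_target]
  let F : ↥(Subgroup.centralizer ({s} : Set SL5)) →
      (Fin 4 → ZMod 2) × (Fin 3 → ZMod 2) × Matrix.GeneralLinearGroup (Fin 3) (ZMod 2) :=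
    fun b => (fun j => Mc b 0 j.succ, fun i => Mc b (e3 i) 1, Ub hs b)
  apply Nat.card_le_card_of_injective F
  intro b b' h
  have h1 : ∀ j : Fin 4, Mc b 0 j.succ = Mc b' 0 j.succ := fun j =>
    congrFun (congrArg (fun t => t.1) h) j
  have h2 : ∀ i : Fin 3, Mc b (e3 i) 1 = Mc b' (e3 i) 1 := fun i =>
    congrFun (congrArg (fun t => t.2.1) h) i
  have h3 : ∀ i j : Fin 3, Mc b (e3 i) (e3 j) = Mc b' (e3 i) (e3 j) := fun i j =>
    congrFun (congrFun (congrArg (fun t => ((t.2.2 : Matrix.GeneralLinearGroup (Fin 3) (ZMod 2)) :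
      Matrix (Fin 3) (Fin 3) (ZMod 2))) h) i) j
  have h00 : Mc b 0 0 = Mc b' 0 0 := by
    rw [corner (entries (Mc_comm hs b⁻¹)).1 (Mc_mul b), corner (entries (Mc_comm hs b'⁻¹)).1 (Mc_mul b')]
  have h11 : Mc b 1 1 = Mc b' 1 1 := by
    rw [corner' (entries (Mc_comm hs b)).2 (Mc_mul b), corner' (entries (Mc_comm hs b')).2 (Mc_mul b')]
  have hM : Mc b = Mc b' :=
    mat_ext_of (entries (Mc_comm hs b)) (entries (Mc_comm hs b')) h00 h11 h1 h2 h3
  apply Subtype.ext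
  apply Subtype.ext
  exact hM

/-- The main theorem. -/
theorem main (s : SL5) (hs : (s : Matrix (Fin 5) (Fin 5) (ZMod 2)) = Matrix.transvection 0 1 1) :
    ∃ z : ↥Cfsg.M24, orderOf z = 2 ∧
      Nonempty (↥(Subgroup.centralizer ({z} : Set ↥Cfsg.M24)) ≃* ↥(Subgroup.centralizer ({s} : Set SL5))) := by
  refine ⟨z1, ?_, ?_⟩
  · have D := Cfsg.Agent.Lib.M24X.TA.split1
    have : Fact (Nat.Prime 2) := ⟨Nat.prime_two⟩
    apply orderOf_eq_prime
    · rw [pow_two]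
      exact D.es.z_sq
    · exact D.es.z_ne
  · apply graph_iso _ _ TT (TT_le s hs) (fun a ha => exists_of_cent ha)
      (fun x hx h => TT_one_left hx h) (fun x hx h => TT_one_right hx h)
    exact (card_C_le s hs).trans card_C_ge

end Cfsg.Agent.Lib.M24.CI
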